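import Cfsg.Agent.Mon.Loc4
import Cfsg.Agent.Mon.Tau3
import Cfsg.Agent.Leech.MDeg
import Cfsg.Agent.Classical.Wt

/-! A representation of the Conway group containing the 276 unsigned duad vectors of the monomial
subgroup has degree at least 299. -/

set_option autoImplicit false
set_option maxHeartbeats 400000

namespace CF.Mon.Dg

open Cfsg CF.Leech CF.Comp CF.Mon.G CF.Mon.T CF.Mon.L CF.Classical CF.Leech.MD Module LinearMap
open scoped Pointwise

section general
variable {K V ι κ : Type*} [Field K] [AddCommGroup V] [Module K V]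

theorem li_of_wsp (f : κ → End K V) {L : ι → κ → K} (hL : Function.Injective L) [Fintype ι]
    {w : ι → V} (h0 : ∀ i, w i ≠ 0) (h : ∀ i, w i ∈ wsp f (L i)) : LinearIndependent K w := by
  classical
  refine linearIndependent_iff_notMem_span.2 fun i hi => h0 i ?_
  refine Submodule.disjoint_def.1 (disjoint_wsp_sup f ((Finset.univ.erase i).image L) ?_) _ (h i)
    (Submodule.span_le.2 ?_ hi)
  · simp [hL.eq_iff]
  · rintro _ ⟨j, hj, rfl⟩
    exact Finset.le_sup (f := wsp f) (Finset.mem_image_of_mem L (by simpa using hj.2)) (h j)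

variable [FiniteDimensional K V]

theorem tr_quot (p : Submodule K V) (f : End K V) (h : p ≤ p.comap f) :
    trace K V f = trace K p (f.restrict h) + trace K (V ⧸ p) (p.mapQ p f h) := by
  obtain ⟨s, hs⟩ := p.mkQ.exists_rightInverse_of_surjective p.range_mkQ
  have k : ∀ x, p.mkQ (s x) = x := fun x => congr($hs x)
  have m : ∀ x, (f - (s ∘ₗ p.mapQ p f h) ∘ₗ p.mkQ) x ∈ p := fun x => by
    rw [← Submodule.Quotient.mk_eq_zero, ← p.mkQ_apply]
    simp [k, -Submodule.mkQ_apply]
    simp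
  have e : (f - (s ∘ₗ p.mapQ p f h) ∘ₗ p.mkQ).restrict (fun x _ => m x) = f.restrict h := by
    ext x
    simp [(Submodule.Quotient.mk_eq_zero p).2 (h x.2)]
  rw [← e, trace_restrict_eq_of_forall_mem p _ m, map_sub, trace_comp_comm', ← comp_assoc, hs,
    id_comp, sub_add_cancel]

theorem tr_fam [Fintype ι] [DecidableEq ι] {w : ι → V} (hw : LinearIndependent K w) (f : End K V)
    {c : ι → K} {s : ι → ι} (hf : ∀ i, f (w i) = c i • w (s i))
    (h : Submodule.span K (Set.range w) ≤ (Submodule.span K (Set.range w)).comap f) :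
    trace K V f = ∑ i, (if s i = i then c i else 0) + trace K _ (Submodule.mapQ _ _ f h) := by
  rw [tr_quot _ f h, trace_eq_matrix_trace K (Basis.span hw), Matrix.trace]
  congr 1
  refine Finset.sum_congr rfl fun i _ => ?_
  have : f.restrict h (Basis.span hw i) = c i • Basis.span hw (s i) := Subtype.ext (by
    simp [Basis.span_apply, hf])
  rw [Matrix.diag_apply, toMatrix_apply, this]
  simp [Finsupp.single_apply, -Basis.span_apply]

end general

/-- sign changes in the monomial group -/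
noncomputable def ep (c : Finset Pt) : Mon :=
  open _root_.Classical in if h : c ∈ CS then ⟨eps h, mono_mem _ _⟩ else 1

/-- permutations in the monomial group -/
def pm : M24 →* Mon := permHom.codRestrict _ fun σ => mono_mem σ.2 empty_mem_CS

theorem ep_of {c : Finset Pt} (h : c ∈ CS) : ep c = ⟨eps h, mono_mem _ _⟩ := dif_pos h

theorem ep_mul {c d : Finset Pt} (hc : c ∈ CS) (hd : d ∈ CS) : ep c * ep d = ep (symmDiff c d) := by
  rw [ep_of hc, ep_of hd, ep_of (symmDiff_mem_CS hc hd)]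
  exact Subtype.ext (eps_mul hc hd)

theorem ep_empty : ep ∅ = 1 := by rw [ep_of empty_mem_CS]; exact Subtype.ext mono_one

theorem ep_comm (c d : Finset Pt) : ep c * ep d = ep d * ep c := by
  by_cases hc : c ∈ CS
  · by_cases hd : d ∈ CS
    · rw [ep_mul hc hd, ep_mul hd hc, symmDiff_comm]
    · simp [ep, hd]
  · simp [ep, hc]

theorem ep_conj (σ : M24) (c : Finset Pt) : pm σ * ep c * (pm σ)⁻¹ = ep (σ.1 • c) := by
  by_cases hc : c ∈ CS
  · rw [ep_of hc, ep_of (smul_mem_CS σ.2 hc)]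
    exact Subtype.ext (perm_eps σ hc)
  · simp [ep, hc, smul_mem_CS_iff σ.2]

def g23 : ℕ := 0xb82d5a4e5183dcd62d4941cc520c41
def m23 : List ℕ := [15230293, 13062145, 6735190, 5902343, 14435674, 4683082, 15799658, 16101503,
  15425791, 14074367, 4581034, 16003754]

theorem g23_check : isM24 g23 = true ∧ allLt 24 (fun i => Nat.beq (pw (ap g23) 23 i) i) = true ∧
    ap g23 0 = 1 ∧ ∀ j < 12, isCode (nth 0 m23 j) = true ∧
      (enc (2 ^ j) = Nat.xor (nth 0 m23 j) (img (ap g23) (nth 0 m23 j)) ∨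
      enc (2 ^ j) = Nat.xor (Nat.xor (nth 0 m23 j) (img (ap g23) (nth 0 m23 j))) 16777215) := by
  decide +kernel

theorem ord_g23 : orderOf (tE g23) = 23 :=
  haveI : Fact (Nat.Prime 23) := ⟨by norm_num⟩
  orderOf_eq_prime (((rp_tE g23_check.1).pow 23).ext rp_one g23_check.2.1) fun e => by
    have := rp_tE g23_check.1 0 (by norm_num)
    rw [e, g23_check.2.2.1, rp_one 0 (by norm_num)] at this
    exact zero_ne_one this

/-- in small degree the sign changes act trivially -/
theorem ep_triv {U : Type*} [AddCommGroup U] [Module ℂ U] [FiniteDimensional ℂ U]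
    (μ : Mon →* End ℂ U) (hn : μ (ep Finset.univ) = 1) (h : finrank ℂ U < 23) {c : Finset Pt}
    (hc : c ∈ CS) : μ (ep c) = 1 := by
  by_contra h1
  have cm : ∀ c d v, μ (ep c) (μ (ep d) v) = μ (ep d) (μ (ep c) v) := fun c d v => by
    rw [← rep_mul_apply, ep_comm, rep_mul_apply]
  obtain ⟨l, x, x0, hl, hx⟩ := exists_wt_ne_one (fun c => μ (ep c)) cm (μ (ep c)) (fun d => cm d c)
    (p := 2) (by norm_num) (by rw [sq, ← map_mul, ep_mul hc hc, symmDiff_self, Finset.bot_eq_empty,
      ep_empty, map_one]) h1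
  have hl : ∀ c, μ (ep c) x = l c • x := hl
  have lm : ∀ c ∈ CS, ∀ d ∈ CS, l (symmDiff c d) = l c * l d := fun c hc d hd =>
    eq_of_smul_eq x0 (by rw [← hl, ← ep_mul hc hd, rep_mul_apply, hl, map_smul, hl, smul_smul,
      mul_comm])
  have l0 : l ∅ = 1 := eq_of_smul_eq x0 (by rw [← hl, ep_empty, map_one, one_smul]; rfl)
  have l1 : l Finset.univ = 1 := eq_of_smul_eq x0 (by rw [← hl, hn, one_smul]; rfl)
  let S : Subgroup M24 :=
    { carrier := {σ | ∀ c, l (σ.1 • c) = l c}
      mul_mem' := fun a b c => by rw [Subgroup.coe_mul, mul_smul, a, b]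
      one_mem' := fun c => by simp
      inv_mem' := fun {σ} a c => by rw [← a, Subgroup.coe_inv, smul_inv_smul] }
  have gS : tE g23 ∉ S := fun k => hx (by
    rw [hl, CS_induction (P := fun c => l c = 1) l0 (fun j hj => ?_)
      (fun s t hs ht a b => by rw [lm s hs t ht, a, b, one_mul]) hc, one_smul]
    obtain ⟨a, b⟩ := g23_check.2.2.2 j hj
    have a := ofMask_mem_CS a
    have e : l (ofMask (Nat.xor (nth 0 m23 j) (img (ap g23) (nth 0 m23 j)))) = 1 := by
      rw [ofMask_xor, ← smul_ofMask (rp_tE g23_check.1), lm _ a _ (smul_mem_CS (tE g23).2 a), k,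
        ← lm _ a _ a, symmDiff_self, Finset.bot_eq_empty, l0]
    rcases b with b | b
    · rw [b, e]
    · rw [b, ofMask_xor, ofMask_full, lm _ _ _ univ_mem_CS, e, l1, one_mul]
      rw [ofMask_xor, ← smul_ofMask (rp_tE g23_check.1)]
      exact symmDiff_mem_CS a (smul_mem_CS (tE g23).2 a))
  have inj : ∀ a b : Fin 23, a < b → (fun c => l ((tE g23 ^ a.1).1 • c)) ≠
      fun c => l ((tE g23 ^ b.1).1 • c) := fun a b ab e => gS (by
    have : tE g23 ^ (b.1 - a.1) ∈ S := fun c => by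
      have := congrFun e ((tE g23 ^ a.1)⁻¹.1 • c)
      rwa [← mul_smul, ← mul_smul, ← Subgroup.coe_mul, ← Subgroup.coe_mul, mul_inv_cancel,
        ← pow_sub _ (show a.1 ≤ b.1 from ab.le), Subgroup.coe_one, one_smul, eq_comm] at this
    refine (Subgroup.zpowers_le_of_mem this) (mem_zpowers_pow_iff.2 ?_)
    rw [ord_g23]
    exact (Nat.coprime_of_lt_prime (Nat.sub_ne_zero_of_lt ab) (by omega) (by norm_num)).symm)
  have := card_mul_le_of_wsp (fun c => μ (ep c)) (P := Fin 23)
    (fun k c => l ((tE g23 ^ k.1).1 • c)) (d := 1) (c := 1) (fun k => one_le_finrank_wsp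
      (v := μ (pm (tE g23 ^ k.1))⁻¹ x) (fun e => x0 (rep_injective μ _ (e.trans (map_zero _).symm)))
      fun c => by
        rw [rep_conj_apply μ (a := ep ((tE g23 ^ k.1).1 • c)) (by rw [← ep_conj]; group), hl,
          map_smul])
    fun k => Finite.card_le_one_iff_subsingleton.2 ⟨fun a b => Subtype.ext (by
      rcases lt_trichotomy a.1 b.1 with o | o | o
      · exact absurd (a.2.trans b.2.symm) (inj _ _ o)
      · exact o
      · exact absurd (b.2.trans a.2.symm) (inj _ _ o))⟩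
  simp at this
  omega

/-- duads -/
abbrev Du : Type := {d : Fin 24 × Fin 24 // d.1 < d.2}

theorem card_Du : Fintype.card Du = 276 := by decide +kernel

def bM : List ℕ := [13062145, 4845570, 13938692, 7221256, 10170384, 11952160, 15515712, 2019456,
  4038912, 8077824, 11654144, 14919680]

theorem du_sep : (∀ t < 12, isCode (nth 0 bM t) = true) ∧ allLt 24 (fun j => allLt j fun i =>
    allLt 24 fun l => allLt l fun k => Bool.rec true (Nat.beq (24 * i + j) (24 * k + l))
      (allLt 12 fun t => force (nth 0 bM t) fun m =>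
        Nat.beq (Nat.xor (bit m i) (bit m j)) (Nat.xor (bit m k) (bit m l)))) = true := by
  decide +kernel

theorem ib_mask {m i : ℕ} (h : i < 24) : ib (ofMask m) (pt i) = bit m i := by
  rw [ib, bit_eq]
  simp only [pt_mem_ofMask h]
  split_ifs <;> simp

theorem chi_inj {x y : ZMod 2} (h : chi ℂ x = chi ℂ y) : x = y := by
  rcases z2_cases x with rfl | rfl <;> rcases z2_cases y with rfl | rfl <;>
    first | rfl | norm_num at h

theorem du_inj : Function.Injective fun (d : Du) (c : {c // c ∈ CS}) =>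
    chi ℂ (ib c (pt d.1.1) + ib c (pt d.1.2)) := fun d e h => by
  have := allLt_iff.1 (allLt_iff.1 (allLt_iff.1 (allLt_iff.1 du_sep.2 _ d.1.2.2) _ d.2) _ e.1.2.2)
    _ e.2
  rw [allLt_iff.2 fun t ht => ?_] at this
  · have := Comp.beq_iff.1 this
    exact Subtype.ext (Prod.ext (Fin.ext (by omega)) (Fin.ext (by omega)))
  · have := chi_inj (congrFun h ⟨_, ofMask_mem_CS (du_sep.1 t ht)⟩)
    simp only [ib_mask (Fin.is_lt _), bit_eq] at this
    rw [force_eq, Comp.beq_iff]
    simp only [bit_eq]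
    split_ifs at this ⊢ <;> first | rfl | exact absurd this (by decide)

def cX : ℕ := 9347075
def cY : ℕ := 3227948
def pX : ℕ := 0x8da957b6e89964c5a930399c410c01

theorem pX_check : isCode cX = true ∧ isCode cY = true ∧ isM24 pX = true ∧ cl (ap pX) = 1 ∧
    allLt 24 (fun i => Nat.beq (ap pX (ap pX i)) i) = true ∧ ∀ i < 24, ∀ n < 24,
    xiF (fun p => sgv cX (fun n => if n = i then 8 else 0) (ap ordC p)) (ap ordI n) =
    sgv cY (fun n => xiF (fun p => if ap ordC p = i then 8 else 0) (ap ordI (ap pX n))) n := by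
  decide +kernel

theorem eps_pt {m : ℕ} (hc : ofMask m ∈ CS) {x : LL} {f : ℕ → ℤ}
    (h : ∀ n < 24, (x : Leech.V) (pt n) = f n) :
    ∀ n < 24, ((eps hc • x : LL) : Leech.V) (pt n) = sgv m f n := fun n hn => by
  rw [eps_apply, sgv, h n hn]; simp only [pt_mem_ofMask hn]

theorem xi_conj : xi * eps (ofMask_mem_CS pX_check.1) * xi⁻¹ =
    eps (ofMask_mem_CS pX_check.2.1) * permHom (tE pX) := by
  have r := rp_tE pX_check.2.2.1
  have e : tE pX = ⟨_, permOf_mem_M24 pX_check.2.2.1⟩⁻¹ := by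
    rw [← inv_eq_of_mul_eq_one_right ((r.mul r).ext rp_one pX_check.2.2.2.2.1), tE,
      dif_pos pX_check.2.2.1]
  rw [mul_inv_eq_iff_eq_mul, e]
  refine co_ext (forall_pt.2 fun i hi => LL.ext (forall_pt.2 fun n hn => ?_))
  rw [mul_smul, mul_smul, mul_smul, xi_pt (eps_pt _ (e8_pt i hi)) n hn,
    eps_pt _ (inv_pt pX_check.2.2.1 (xi_pt (e8_pt i hi))) n hn]
  exact pX_check.2.2.2.2.2 i hi n hn

/-- the action of the involution on duads -/
def sX (d : Du) : Du :=
  if h : ap pX d.1.1 < ap pX d.1.2 ∧ ap pX d.1.2 < 24 then ⟨(⟨_, h.1.trans h.2⟩, ⟨_, h.2⟩), h.1⟩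
  else if h : ap pX d.1.2 < ap pX d.1.1 ∧ ap pX d.1.1 < 24 then
    ⟨(⟨_, h.1.trans h.2⟩, ⟨_, h.2⟩), h.1⟩ else d

/-- the sign on a duad -/
def sZ (m : ℕ) (d : Du) : ℤ := if bit m d.1.1 = bit m d.1.2 then 1 else -1

theorem sX_check : (∀ d : Du, ((sX d).1.1 = ap pX d.1.1 ∧ (sX d).1.2 = ap pX d.1.2) ∨
    ((sX d).1.1 = ap pX d.1.2 ∧ (sX d).1.2 = ap pX d.1.1)) ∧ ∑ d, sZ cX d = 20 ∧
    ∑ d, (if sX d = d then sZ cY (sX d) else 0) = 36 := by decide +kernel

theorem chi_sZ (m : ℕ) (d : Du) :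
    chi ℂ (ib (ofMask m) (pt d.1.1) + ib (ofMask m) (pt d.1.2)) = sZ m d := by
  simp only [ib_mask (Fin.is_lt _), sZ, bit_eq]
  split_ifs <;> simp_all [z2_add_self]

/-- the degree bound for the Conway group -/
theorem co_deg {A : Type*} [AddCommGroup A] [Module ℂ A] [FiniteDimensional ℂ A]
    (α : Co0 →* End ℂ A) (hn : α negCo = 1) (v : Pt → Pt → A) (h0 : ∀ i j, i ≠ j → v i j ≠ 0)
    (hs : ∀ i j, v i j = v j i) (he : ∀ o (ho : o ∈ octads) i j, i ≠ j →
      α (eps ho.1) (v i j) = chi ℂ (ib o i + ib o j) • v i j)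
    (hp : ∀ (σ : M24) i j, i ≠ j → α (permHom σ) (v i j) = v (σ.1 i) (σ.1 j)) :
    299 ≤ finrank ℂ A := by
  have he' : ∀ c ∈ CS, ∀ hc : c ∈ CS, ∀ i j, i ≠ j →
      α (eps hc) (v i j) = chi ℂ (ib c i + ib c j) • v i j := fun c hc =>
    CS_induction_octads (P := fun c => ∀ hc : c ∈ CS, ∀ i j, i ≠ j →
      α (eps hc) (v i j) = chi ℂ (ib c i + ib c j) • v i j)
      (fun _ i j _ => by simp [eps, mono_one, ib_empty]) (fun o ho _ => he o ho)
      (fun s t hs ht a b _ i j ij => by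
        rw [← eps_mul hs ht, rep_mul_apply, b ht i j ij, map_smul, a hs i j ij, smul_smul, ← chi_add,
          ib_symmDiff, ib_symmDiff]
        congr 2; ring) hc
  let w : Du → A := fun d => v (pt d.1.1) (pt d.1.2)
  have ne : ∀ d : Du, pt d.1.1 ≠ pt d.1.2 := fun d e =>
    d.2.ne (Fin.ext (pt_inj d.1.1.2 d.1.2.2 e))
  have hw : LinearIndependent ℂ w := li_of_wsp (fun c : {c // c ∈ CS} => α (eps c.2)) du_inj
    (fun d => h0 _ _ (ne d)) fun d c => he' c c.2 c.2 _ _ (ne d)
  have hv : ∀ i j, i ≠ j → v i j ∈ Submodule.span ℂ (Set.range w) := fun i j ij => by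
    rcases lt_or_gt_of_ne (mt (idx_injective ·) ij) with o | o
    · exact Submodule.subset_span ⟨⟨(⟨_, idx_lt i⟩, ⟨_, idx_lt j⟩), o⟩, by simp [w, pt_idx]⟩
    · exact Submodule.subset_span ⟨⟨(⟨_, idx_lt j⟩, ⟨_, idx_lt i⟩), o⟩, by simp [w, pt_idx, hs i]⟩
  have hB : ∀ g : Mon, Submodule.span ℂ (Set.range w) ≤
      (Submodule.span ℂ (Set.range w)).comap (α.comp Mon.subtype g) := by
    rintro ⟨_, σ, c, hσ, hc, rfl⟩
    refine Submodule.span_le.2 ?_
    rintro _ ⟨d, rfl⟩
    show α (mono hσ hc) (v _ _) ∈ Submodule.span ℂ (Set.range w)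
    have := σ.injective.ne (ne d)
    rw [mono_eq, rep_mul_apply, hp _ _ _ (ne d), he' c hc hc _ _ this]
    exact Submodule.smul_mem _ _ (hv _ _ this)
  let μ := Representation.quotient (α.comp Mon.subtype) _ hB
  have fr := (Submodule.span ℂ (Set.range w)).finrank_quotient_add_finrank
  rw [finrank_span_eq_card hw, card_Du] at fr
  by_contra lt
  have tv : ∀ {c} (hc : c ∈ CS), μ (ep c) = 1 := ep_triv μ (by
    rw [ep_of univ_mem_CS]
    ext x
    simp [μ, eps, mono_neg, hn]) (by omega)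
  have hX := ofMask_mem_CS pX_check.1
  have hY := ofMask_mem_CS pX_check.2.1
  have r := rp_tE pX_check.2.2.1
  have tr : ∀ (g : Mon) (c : Du → ℂ) (s : Du → Du), (∀ d, α g (w d) = c d • w (s d)) →
      trace ℂ A (α g) = ∑ d, (if s d = d then c d else 0) + trace ℂ _ (μ g) :=
    fun g c s h => tr_fam hw (α g) h (hB g)
  have ec : ∀ {c} (hc : c ∈ CS), (ep c : Co0) = eps hc := fun hc => by rw [ep_of hc]
  have t1 := tr (ep (ofMask cX)) (fun d => sZ cX d) (fun d => d) fun d => by
    rw [← chi_sZ, ec hX]; exact he' _ hX hX _ _ (ne d)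
  have t2 := tr (ep (ofMask cY) * pm (tE pX)) (fun d => sZ cY (sX d)) sX fun d => by
    have k : ∀ i : Fin 24, (tE pX).1 (pt i) = pt (ap pX i) := fun i => by rw [← r i i.2, pt_idx]
    have : v (pt (ap pX d.1.1)) (pt (ap pX d.1.2)) = w (sX d) := by
      rcases sX_check.1 d with o | o
      · rw [← o.1, ← o.2]
      · rw [← o.1, ← o.2, hs]
    rw [Subgroup.coe_mul, rep_mul_apply, ec hY, show (pm (tE pX) : Co0) = permHom _ from rfl,
      hp _ _ _ (ne d), k, k, this, ← chi_sZ]
    exact he' _ hY hY _ _ (ne _)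
  rw [ec hX, tv hX] at t1
  rw [map_mul μ, tv hY, one_mul, Subgroup.coe_mul, ec hY,
    show (pm (tE pX) : Co0) = permHom _ from rfl, ← xi_conj, map_mul, trace_mul_comm, ← map_mul,
    ← mul_assoc, inv_mul_cancel, one_mul, t1] at t2
  have s1 : ∑ d, (if d = d then (sZ cX d : ℂ) else 0) = 20 := by
    simp only [if_true]; exact_mod_cast sX_check.2.1
  have s2 : ∑ d, (if sX d = d then (sZ cY (sX d) : ℂ) else 0) = 36 := by
    exact_mod_cast sX_check.2.2
  rw [s1, s2, trace_one] at t2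
  have := deg_ge (μ.comp pm) r pX_check.2.2.2.1 fun e => by
    rw [MonoidHom.comp_apply] at e
    rw [e, add_left_inj] at t2; norm_num at t2
  omega

end CF.Mon.Dg
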