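import Cfsg.Agent.Mon.Deg1

/-! The minimal degree of a faithful complex representation of the Monster. -/

set_option autoImplicit false
set_option maxHeartbeats 400000

namespace CF.Mon.Dg

open Cfsg CF.Leech CF.Comp CF.Mon.G CF.Mon.T CF.Mon.L CF.Classical CF.Leech.MD Module LinearMap Lab
open CF.Known.Mon
open scoped Pointwise

variable {W : Type*} [AddCommGroup W] [Module ℂ W]

/-- the character of the extraspecial group given by a label -/
def wt (t p : Lab) : ℂ := chi ℂ (bf p t)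

theorem wt_inj {s t : Lab} : wt s = wt t ↔ s ≈ₗ t :=
  ⟨fun h => ⟨funext fun k => (bf_Z k s).symm.trans ((chi_inj (congrFun h (Z k))).trans (bf_Z k t)),
    funext fun k => (bf_X k s).symm.trans ((chi_inj (congrFun h (X k))).trans (bf_X k t))⟩,
    fun h => funext fun p => congrArg (chi ℂ) ((Eqv.refl p).bf h)⟩

/-- weight spaces -/
noncomputable def Wt (R : Gt →* End ℂ W) (t : Lab) : Submodule ℂ W := wsp (fun p => R (pauli p)) (wt t)

variable {R : Gt →* End ℂ W} {s t : Lab} {v : W}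

theorem mem_Wt : v ∈ Wt R t ↔ ∀ p, R (pauli p) v = chi ℂ (bf p t) • v := Iff.rfl

theorem Wt_congr (h : s ≈ₗ t) : Wt R s = Wt R t := by rw [Wt, wt_inj.2 h, Wt]

theorem Wt_map (γ : Gt) (h : v ∈ Wt R t) : R γ v ∈ Wt R (γ • t) := mem_Wt.2 fun p => by
  rw [rep_conj_apply R (a := pauli (γ⁻¹ • p)) (by rw [conj_pauli', smul_inv_smul]), mem_Wt.1 h,
    map_smul, ← bf_smul γ, smul_inv_smul]

theorem neg_self (h : v = -v) : v = 0 := by
  have : (2 : ℂ) • v = 0 := by rw [two_smul]; nth_rw 1 [h]; exact neg_add_cancel v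
  simpa using this

theorem mem_Wt_one (h0 : Wt R (Z 11) = ⊥) (h : ∀ p : Lab, p.a 11 = 0 → R (pauli p) v = v) :
    v ∈ Wt R 1 := by
  have k : ∀ p : Lab, p.a 11 = 0 → R (pauli p) (R (pauli (X 11)) v) = R (pauli (X 11)) v :=
    fun p hp => by
      rw [rep_conj_apply R (a := pauli ((X 11)⁻¹ * p * X 11)) (by simp only [map_mul, map_inv]; group),
        h _ (by simp [hp, z2_add_self])]
  have e : ∀ p : Lab, p.a 11 = 1 → ∃ q : Lab, q.a 11 = 0 ∧ p = X 11 * q := fun p hp =>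
    ⟨X 11 * p, by simp [hp, X, z2_add_self], by rw [← mul_assoc, X_mul_X, one_mul]⟩
  have : v - R (pauli (X 11)) v ∈ Wt R (Z 11) := mem_Wt.2 fun p => by
    rw [bf_Z', map_sub]
    rcases z2_cases (p.a 11) with a | a
    · rw [h p a, k p a, a, chi_zero, one_smul]
    · obtain ⟨q, b, rfl⟩ := e p a
      rw [a, map_mul, rep_mul_apply, rep_mul_apply, h q b, k q b, ← rep_mul_apply, ← map_mul,
        X_mul_X]
      simp
  rw [h0, Submodule.mem_bot, sub_eq_zero] at this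
  refine mem_Wt.2 fun p => ?_
  rw [bf_one', chi_zero, one_smul]
  rcases z2_cases (p.a 11) with a | a
  · exact h p a
  · obtain ⟨q, b, rfl⟩ := e p a
    rw [map_mul, rep_mul_apply, h q b, ← this]

def a22 : ℕ := 0x8b1a63dece5c950a4cb51248f1a020
def b22 : ℕ := 0x8398d7a07111a6955aeba48a7a9020

theorem ab22 : (isM24 a22 = true ∧ ap a22 0 = 0 ∧ ap a22 1 = 1) ∧
    (isM24 b22 = true ∧ ap b22 0 = 0 ∧ ap b22 1 = 1) ∧ ap a22 (ap b22 2) ≠ ap b22 (ap a22 2) := by
  decide +kernel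

theorem exists_PA22 {g : ℕ} (h : isM24 g = true ∧ ap g 0 = 0 ∧ ap g 1 = 1) :
    ∃ γ ∈ PA, gOf γ = permHom (tE g) := by
  obtain ⟨γ, a, b⟩ := exists_C0 (tE g)
  have k : ∀ i < 24, (tE g).1 (pt i) = pt (ap g i) := fun i hi => by rw [← rp_tE h.1 i hi, pt_idx]
  refine ⟨γ, show γ • tA = tA from ?_, b⟩
  rw [← cls_uA, uA, C0_smul_cls a (four_m4 _ _), b, perm_m4, k 0 (by norm_num), k 1 (by norm_num),
    h.2.1, h.2.2]

variable [FiniteDimensional ℂ W]

theorem fr_of_map {T : End ℂ W} (hT : Function.Injective T) {A B : Submodule ℂ W}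
    (h : ∀ v ∈ A, T v ∈ B) : finrank ℂ A ≤ finrank ℂ B := by
  rw [(Submodule.equivMapOfInjective T hT A).finrank_eq]
  exact Submodule.finrank_mono (by rintro _ ⟨v, hv, rfl⟩; exact h v hv)

theorem fr_add {A B U : Submodule ℂ W} (h : Disjoint A B) (h1 : A ≤ U) (h2 : B ≤ U) :
    finrank ℂ A + finrank ℂ B ≤ finrank ℂ U := by
  rw [← Submodule.finrank_sup_add_finrank_inf_eq, h.eq_bot, finrank_bot]
  exact Submodule.finrank_mono (sup_le h1 h2)

theorem fr_Wt (γ : Gt) (h : γ • s ≈ₗ t) : finrank ℂ (Wt R s) ≤ finrank ℂ (Wt R t) :=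
  fr_of_map (rep_injective R γ) fun _ hv => Wt_congr (R := R) h ▸ Wt_map γ hv

theorem card_Wt {P : Type} [Finite P] (f : P → Lab) {d : ℕ} {U : Submodule ℂ W}
    (hd : ∀ i, d ≤ finrank ℂ (Wt R (f i))) (hU : ∀ i, Wt R (f i) ≤ U)
    (hc : ∀ i, ∃ j, ∀ k, f k ≈ₗ f i → k = i ∨ k = j) : Nat.card P * d ≤ 2 * finrank ℂ U := by
  classical
  have := Fintype.ofFinite P
  have h1 : (Finset.univ : Finset P).card ≤ 2 * (Finset.univ.image fun i => wt (f i)).card := by
    refine Finset.card_le_mul_card_image _ _ fun l hl => ?_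
    obtain ⟨i, -, rfl⟩ := Finset.mem_image.1 hl
    obtain ⟨j, hj⟩ := hc i
    exact (Finset.card_le_card (t := {i, j}) fun k hk => by
      simpa using hj k (wt_inj.1 (Finset.mem_filter.1 hk).2)).trans Finset.card_le_two
  have h2 : (Finset.univ.image fun i => wt (f i)).card * d ≤ finrank ℂ U := by
    refine le_trans ?_ ((sum_finrank_wsp_eq (fun p => R (pauli p))
      (Finset.univ.image fun i => wt (f i))).trans_le (Submodule.finrank_mono
        (Finset.sup_le fun l hl => by obtain ⟨i, -, rfl⟩ := Finset.mem_image.1 hl; exact hU i)))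
    refine Finset.card_nsmul_le_sum _ _ _ fun l hl => ?_
    obtain ⟨i, -, rfl⟩ := Finset.mem_image.1 hl
    exact hd i
  rw [Nat.card_eq_fintype_card, ← Finset.card_univ]
  nlinarith

theorem card_Wt_nm {m : ℤ} (hm : m ≤ 48) {d : ℕ} {U : Submodule ℂ W}
    (hd : ∀ x, nm x = m → d ≤ finrank ℂ (Wt R (cls x))) (hU : ∀ x, nm x = m → Wt R (cls x) ≤ U) :
    {x : LL | nm x = m}.ncard * d ≤ 2 * finrank ℂ U :=
  haveI : Finite {x : LL | nm x = m} := finite_nm m
  card_Wt (fun x : {x : LL | nm x = m} => cls x) (fun x => hd x x.2) (fun x => hU x x.2) fun x =>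
    ⟨⟨-x, (nm_neg _).trans x.2⟩, fun y h => (eq_or_neg_of_cls (y.2.trans_le hm)
      (x.2.trans_le (by omega)) h).imp Subtype.ext Subtype.ext⟩

theorem fr_cls {x y : LL} (h : ∃ g : Co0, g • x = y) :
    finrank ℂ (Wt R (cls x)) ≤ finrank ℂ (Wt R (cls y)) := by
  obtain ⟨g, rfl⟩ := h
  obtain ⟨γ, rfl⟩ := gOf_surjective g
  exact fr_Wt γ (smul_cls _ _)

theorem big48 (hn : finrank ℂ W < 196883) {x : LL} (h : nm x = 48) : Wt R (cls x) = ⊥ := by
  have := card_Wt_nm (R := R) (U := ⊤) le_rfl (fun y hy => fr_cls (trans_48 h hy)) fun _ _ => le_top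
  rw [ncard_nm48, finrank_top] at this
  exact Submodule.finrank_eq_zero.1 (by omega)

theorem big64 (hn : finrank ℂ W < 196883) {x : LL} (h : nm x = 64) : Wt R (cls x) = ⊥ := by
  have := card_Wt (R := R) (U := ⊤) (d := finrank ℂ (Wt R (cls x)))
    (fun p : orbIn (⊤ : Subgroup Gt) Y0 => p) (fun p => by
      obtain ⟨y, a, b⟩ := orb_Y0.le p.2
      rw [Wt_congr b]
      exact fr_cls (trans_64 h a)) (fun _ => le_top) fun p =>
    ⟨⟨xc * p, orb_Y0.ge (let ⟨y, a, b⟩ := orb_Y0.le p.2; ⟨y, a, (xc_eqv _).trans b⟩)⟩,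
      fun q h => h.cases.imp Subtype.ext Subtype.ext⟩
  rw [Nat.card_coe_set_eq, ncard_orb_Y0, finrank_top] at this
  exact Submodule.finrank_eq_zero.1 (by omega)

theorem short_of_ne (hn : finrank ℂ W < 196883) (h : Wt R t ≠ ⊥) (h1 : ¬ t ≈ₗ 1) : Short t := by
  obtain ⟨x, a⟩ := exists_cls t
  obtain ⟨y, b, c⟩ := exists_short' x
  have e := a.trans (cls_eqv_iff_red.2 b.symm)
  rw [Wt_congr e] at h
  rcases c with rfl | c | c | c
  · exact absurd (cls_zero ▸ e) h1
  · exact ⟨y, c, e⟩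
  · exact absurd (big48 hn c) h
  · exact absurd (big64 hn c) h

theorem vX_inj {i j : Pt} {c d : Finset Pt} (hc : c ∈ CS) (hd : d ∈ CS) (h : vX i c = vX j d) :
    i = j ∧ c = d := by
  have k : ∀ k, _ := fun k => (vX_apply i hc k).symm.trans
    ((congrArg (fun x : LL => (x : Leech.V) k) h).trans (vX_apply j hd k))
  obtain rfl : i = j := by
    by_contra ne
    have := k i
    simp only [ind, if_neg ne, if_true] at this
    split_ifs at this <;> omega
  refine ⟨rfl, Finset.ext fun p => ?_⟩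
  have := k p
  simp only [ind] at this
  by_cases a : p ∈ c <;> by_cases b : p ∈ d <;> simp only [a, b, if_true, if_false] at this ⊢ <;>
    split_ifs at this <;> omega

/-- joint eigenspaces of the four-group -/
noncomputable def Ez (R : Gt →* End ℂ W) (a b : ZMod 2) : Submodule ℂ W :=
  End.eigenspace (R (pauli xc)) (chi ℂ a) ⊓ End.eigenspace (R (pauli Y0)) (chi ℂ b)

omit [FiniteDimensional ℂ W] in
theorem mem_Ez {a b : ZMod 2} :
    v ∈ Ez R a b ↔ R (pauli xc) v = chi ℂ a • v ∧ R (pauli Y0) v = chi ℂ b • v := by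
  simp [Ez]

omit [FiniteDimensional ℂ W] in
theorem disj_eig (g : End ℂ W) :
    Disjoint (End.eigenspace g (chi ℂ 0)) (End.eigenspace g (chi ℂ 1)) :=
  Submodule.disjoint_def.2 fun v a b => neg_self (by
    simpa using (End.mem_eigenspace_iff.1 a).symm.trans (End.mem_eigenspace_iff.1 b))

theorem bf_Y0 (p : Lab) : bf Y0 p = p.a 11 := by rw [Y0, bf_mul, bf_xc, bf_Z, zero_add]

theorem fr_short (h : Short t) : finrank ℂ (Wt R tA) ≤ finrank ℂ (Wt R t) :=
  let ⟨γ, e⟩ := exists_smul_short short_tA h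
  fr_Wt γ (e ▸ Eqv.refl _)

theorem odd_le : 49152 * finrank ℂ (Wt R tA) ≤ finrank ℂ (Ez R 0 1) := by
  have := card_Wt (R := R) (U := Ez R 0 1) (fun x : Pt × CS => cls (vX x.1 x.2))
    (fun x => fr_short (short_cls (nm_vX _ x.2.2))) (fun x v hv => mem_Ez.2
      ⟨by rw [mem_Wt.1 hv, bf_xc], by rw [mem_Wt.1 hv, bf_Y0, cls_a_vX _ x.2.2]; rfl⟩) fun x =>
    ⟨(x.1, ⟨x.2.1ᶜ, compl_mem_CS x.2.2⟩), fun y h => by
      rcases eq_or_neg_of_cls ((nm_vX _ y.2.2).trans_le (by omega))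
        ((nm_vX _ x.2.2).trans_le (by omega)) h with e | e
      · exact .inl (Prod.ext (vX_inj y.2.2 x.2.2 e).1 (Subtype.ext (vX_inj y.2.2 x.2.2 e).2))
      · rw [← vX_compl _ x.2.2] at e
        have := vX_inj y.2.2 (compl_mem_CS x.2.2) e
        exact .inr (Prod.ext this.1 (Subtype.ext this.2))⟩
  rw [Nat.card_prod, Nat.card_coe_set_eq, ncard_CS_all, Nat.card_eq_fintype_card, card_pts] at this
  omega

theorem plus_le : finrank ℂ (Wt R 1) + 98280 * finrank ℂ (Wt R tA) ≤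
    finrank ℂ (End.eigenspace (R (pauli xc)) (chi ℂ 0)) := by
  classical
  obtain ⟨S, hS⟩ : ∃ S : Finset (Lab → ℂ), ∀ l, l ∈ S ↔ ∃ t, Short t ∧ wt t = l :=
    ⟨((Set.toFinite {t | Short t}).image wt).toFinset, fun l => Set.Finite.mem_toFinset _⟩
  have a := card_Wt_nm (R := R) (m := 32) (U := S.sup (wsp fun p => R (pauli p))) (by norm_num)
    (fun x h => fr_short (short_cls h)) fun x h => Finset.le_sup (f := wsp fun p => R (pauli p))
      ((hS _).2 ⟨_, short_cls h, rfl⟩)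
  have k : ∀ t, Wt R t ≤ End.eigenspace (R (pauli xc)) (chi ℂ 0) := fun t v hv =>
    End.mem_eigenspace_iff.2 (by rw [mem_Wt.1 hv, bf_xc])
  have b := fr_add (disjoint_wsp_sup (fun p => R (pauli p)) S (l := wt 1) fun h => by
    obtain ⟨t, ht, e⟩ := (hS _).1 h
    obtain ⟨γ, rfl⟩ := exists_smul_short short_tA ht
    exact tA_ne (by simpa using (wt_inj.1 e).smul γ⁻¹)) (k 1) (Finset.sup_le fun l hl => by
      obtain ⟨t, -, rfl⟩ := (hS _).1 hl
      exact k t)
  rw [ncard_nm32] at a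
  change finrank ℂ (Wt R 1) + _ ≤ _ at b
  omega

theorem exists_Wt (h : Ez R 0 1 ≠ ⊥) : ∃ t, Wt R t ≠ ⊥ ∧ ¬ t ≈ₗ 1 := by
  have x0 : ∀ v ∈ Ez R 0 1, ∀ z, R (pauli (xp z)) v = v := fun v hv z => by
    rcases z2_cases z with rfl | rfl
    · simp
    · simpa using (mem_Ez.1 hv).1
  have cm : ∀ p q, ∀ v ∈ Ez R 0 1, R (pauli p) (R (pauli q) v) = R (pauli q) (R (pauli p) v) :=
    fun p q v hv => by
      rw [← rep_mul_apply, ← rep_mul_apply, ← map_mul, ← map_mul, mul_comm_eq p, xp_comm, map_mul,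
        rep_mul_apply, x0 v hv]
  obtain ⟨l, v, hv, v0, hl⟩ := exists_joint_eigen (fun p => R (pauli p)) _ h (fun p v hv => mem_Ez.2
    ⟨by rw [cm _ _ v hv, (mem_Ez.1 hv).1, map_smul], by rw [cm _ _ v hv, (mem_Ez.1 hv).2, map_smul]⟩)
    cm
  have hl : ∀ p, R (pauli p) v = l p • v := hl
  have lm : ∀ p q, l (p * q) = l p * l q := fun p q => eq_of_smul_eq v0 (by
    rw [← hl, map_mul, rep_mul_apply, hl, map_smul, hl, smul_smul, mul_comm])
  have : ∀ p, ∃ z, l p = chi ℂ z := fun p => by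
    have : l p * l p = 1 := eq_of_smul_eq v0 (by rw [← lm, ← hl, mul_self_eq, x0 v hv, one_smul])
    rcases mul_self_eq_one_iff.1 this with e | e
    · exact ⟨0, e⟩
    · exact ⟨1, e.trans chi_one.symm⟩
  choose χ hχ using this
  obtain ⟨t, ht⟩ := exists_bf_char (R := ⊤) trivial χ
    (fun p _ q _ => chi_inj (by rw [chi_add, ← hχ, ← hχ, ← hχ, lm]))
    (chi_inj (eq_of_smul_eq v0 (by rw [← hχ, ← hl, (mem_Ez.1 hv).1])))
  refine ⟨t, fun e => v0 ((Submodule.eq_bot_iff _).1 e v (mem_Wt.2 fun p => by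
    rw [hl, hχ, bf_comm, ht p trivial])), fun e => ?_⟩
  have := chi_inj (eq_of_smul_eq v0 ((hχ Y0 ▸ hl Y0).symm.trans (mem_Ez.1 hv).2))
  rw [← ht _ trivial, e.bf (Eqv.refl _), bf_one] at this
  exact zero_ne_one this

theorem exists_e (hk : R kap = 1) (h1 : finrank ℂ (Wt R tA) = 1) : ∃ e : Lab → W,
    (∀ t, Short t → e t ≠ 0 ∧ e t ∈ Wt R t) ∧ ∀ γ t, Short t → R γ (e t) = e (γ • t) := by
  classical
  obtain ⟨⟨v, hv⟩, v0, hs⟩ := finrank_eq_one_iff'.1 h1
  have v0 : v ≠ 0 := fun e => v0 (Subtype.ext e)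
  have sc : ∀ γ ∈ PA, ∃ c : ℂ, R γ v = c • v := fun γ h => by
    obtain ⟨c, e⟩ := hs ⟨R γ v, (show γ • tA = tA from h) ▸ Wt_map γ hv⟩
    exact ⟨c, (congrArg Subtype.val e).symm⟩
  have iv : ∀ γ w, R γ (R γ⁻¹ w) = w := fun γ w => by rw [← rep_mul_apply]; simp
  let K : Subgroup Gt :=
    { carrier := {γ | γ ∈ PA ∧ R γ v = v}
      mul_mem' := fun a b => ⟨mul_mem a.1 b.1, by rw [rep_mul_apply, b.2, a.2]⟩
      one_mem' := ⟨one_mem _, by simp⟩
      inv_mem' := fun {γ} a => ⟨inv_mem a.1, rep_injective R γ (by rw [iv, a.2])⟩ }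
  obtain ⟨a, ha, ea⟩ := exists_PA22 ab22.1
  obtain ⟨b, hb, eb⟩ := exists_PA22 ab22.2.1
  have hK : K = PA := normal_eq_PA (fun _ h => h.1) (fun γ h k hk =>
    ⟨mul_mem (mul_mem h hk.1) (inv_mem h), by
      obtain ⟨c, e⟩ := sc _ (inv_mem h)
      rw [rep_mul_apply, rep_mul_apply, e, map_smul, hk.2, ← e, iv]⟩)
    ⟨kap_mem_stab _, by simp [hk]⟩
    ⟨pauli_mem_stab.2 (by decide +kernel), by
      rw [mem_Wt.1 hv, show bf Y0 tA = 0 by decide +kernel, chi_zero, one_smul]⟩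
    (γ := (b * a)⁻¹ * (a * b)) ⟨mul_mem (inv_mem (mul_mem hb ha)) (mul_mem ha hb),
      rep_injective R (b * a) (by
        obtain ⟨c, e⟩ := sc a ha
        obtain ⟨d, f⟩ := sc b hb
        rw [rep_mul_apply R _ (a * b), iv, rep_mul_apply, rep_mul_apply, e, f, map_smul, map_smul, e,
          f, smul_comm])⟩ (by
      rw [map_mul, map_inv, map_mul, map_mul, ea, eb, ← map_mul, ← map_mul, ← map_inv, ← map_mul]
      rintro (e | e)
      · have := permHom_injective (e.trans (map_one _).symm)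
        rw [inv_mul_eq_one] at this
        have r := (rp_tE ab22.1.1).mul (rp_tE ab22.2.1.1)
        exact ab22.2.2 ((r 2 (by norm_num)).symm.trans
          ((this ▸ (rp_tE ab22.2.1.1).mul (rp_tE ab22.1.1)) 2 (by norm_num)))
      · exact Finset.univ_nonempty.ne_empty (mono_inj (Subtype.prop _) empty_mem_CS _ _
          (e.trans mono_neg.symm)).2.symm)
  let e : Lab → W := fun t => if h : Short t then R (exists_smul_short short_tA h).choose v else 0
  have k : ∀ γ, R γ v = e (γ • tA) := fun γ => by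
    have s := short_tA.smul γ
    have c := (exists_smul_short short_tA s).choose_spec
    simp only [e, dif_pos s]
    generalize (exists_smul_short short_tA s).choose = δ at c
    have := (hK.ge (show δ⁻¹ * γ ∈ PA by
      rw [MulAction.mem_stabilizer_iff, mul_smul, ← c, inv_smul_smul])).2
    rw [← this, ← rep_mul_apply R δ, mul_inv_cancel_left, this]
  refine ⟨e, fun t h => ?_, fun γ t h => ?_⟩ <;> obtain ⟨δ, rfl⟩ := exists_smul_short short_tA h
  · rw [← k]
    exact ⟨fun e => v0 (rep_injective R δ (e.trans (map_zero _).symm)), Wt_map δ hv⟩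
  · rw [← k, ← mul_smul, ← k, rep_mul_apply]

theorem m4_C0 (i j : Pt) : pauli (cls (m4 i j)) ∈ C0 :=
  diag_mem_C0 ⟨cls_a_four (four_m4 i j), (cls_b _ _).trans (b11_m4 i j), rfl⟩

theorem short_Y {i j : Pt} (h : i ≠ j) : Short (Y0 * cls (m4 i j)) := by
  have : p4 i j = e8 j + m4 i j := LL.ext fun k => by
    rw [AddSubgroup.coe_add, Pi.add_apply, p4_apply, e8_apply, m4_apply]
    split_ifs <;> rfl
  refine ⟨_, nm_p4 h, ?_⟩
  rw [this, Y0, mul_assoc, ← cls_e8 j]
  exact (xc_eqv _).trans (cls_add _ _).symm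

theorem cls_m4_comm (i j : Pt) : cls (m4 i j) = cls (m4 j i) := by
  rw [← cls_neg]
  exact congrArg _ (LL.ext fun k => by
    rw [AddSubgroup.coe_neg, Pi.neg_apply, m4_apply, m4_apply, neg_sub])

theorem YY : Y0 * Y0 = 1 := sq_iff.2 (by decide +kernel)

variable {Γ : Type*} [Group Γ] {ρ : Gt →* Γ} {τ : Γ} (h : Rels0 ρ τ) (hx : ρ (pauli xc) ≠ 1)
  (φ : Γ →* End ℂ W)
include h

omit [FiniteDimensional ℂ W] in
theorem tau_Ez {a b : ZMod 2} (hv : v ∈ Ez (φ.comp ρ) a b) : φ τ v ∈ Ez (φ.comp ρ) (a + b) a := by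
  obtain ⟨e, f⟩ := mem_Ez.1 hv
  have z : Z 11 = xc * Y0 := by rw [Y0, ← mul_assoc, xc_mul_xc, one_mul]
  refine mem_Ez.2 ⟨?_, ?_⟩
  · rw [MonoidHom.comp_apply, ← rep_mul_apply, ← h.tau_z, rep_mul_apply, z, map_mul, map_mul,
      rep_mul_apply, ← map_smul]
    exact congrArg _ ((congrArg _ f).trans (by
      rw [map_smul, ← MonoidHom.comp_apply, e, smul_smul, chi_add, mul_comm]))
  · rw [MonoidHom.comp_apply, ← rep_mul_apply, ← h.tau_x, rep_mul_apply, ← map_smul]
    exact congrArg _ e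

theorem fr_Ez (a b : ZMod 2) :
    finrank ℂ (Ez (φ.comp ρ) a b) ≤ finrank ℂ (Ez (φ.comp ρ) (a + b) a) :=
  fr_of_map (rep_injective φ τ) fun _ => tau_Ez h φ

theorem total_le : finrank ℂ (Wt (φ.comp ρ) 1) + 196584 * finrank ℂ (Wt (φ.comp ρ) tA) ≤
    finrank ℂ W := by
  have a := fr_add (disj_eig (φ.comp ρ (pauli xc))) le_top le_top
  have b := fr_add (U := End.eigenspace (φ.comp ρ (pauli xc)) (chi ℂ 1)) (A := Ez (φ.comp ρ) 1 0)
    (B := Ez (φ.comp ρ) 1 1) ((disj_eig _).mono inf_le_right inf_le_right) inf_le_left inf_le_left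
  have c := fr_Ez h φ 0 1
  have d := fr_Ez h φ 1 0
  have e := odd_le (R := φ.comp ρ)
  have f := plus_le (R := φ.comp ρ)
  rw [zero_add] at c
  rw [add_zero] at d
  rw [finrank_top] at a
  omega

omit [FiniteDimensional ℂ W] in
theorem Ez_ne (h1 : φ (ρ (pauli xc)) ≠ 1) : Ez (φ.comp ρ) 0 1 ≠ ⊥ := fun e => h1 (by
  have a : ∀ v ∈ Ez (φ.comp ρ) 1 1, v = 0 := fun v hv => rep_injective φ τ (by
    have := tau_Ez h φ hv
    rwa [z2_add_self, e, Submodule.mem_bot, ← map_zero (φ τ)] at this)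
  have b : ∀ v ∈ Ez (φ.comp ρ) 1 0, v = 0 := fun v hv => rep_injective φ τ (by
    have := tau_Ez h φ hv
    rw [add_zero] at this
    rw [a _ this, map_zero])
  set R := φ.comp ρ
  ext u
  have m : ∀ p q, R (pauli p) (R (pauli q) u) = R (pauli (p * q)) u := fun p q => by
    rw [map_mul, rep_mul_apply]
  have c : xc * Y0 = Y0 * xc := xc_comm _
  have n : R (pauli xc) (u - R (pauli xc) u) = -(u - R (pauli xc) u) := by
    rw [map_sub, m, xc_mul_xc, map_one, map_one, neg_sub]; rfl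
  generalize hw : u - R (pauli xc) u = w at n
  have k := a w (mem_Ez.2 ⟨by rw [n, chi_one, neg_one_smul], by
    have := b (w + R (pauli Y0) w) (mem_Ez.2 ⟨by
      rw [map_add, ← rep_mul_apply, ← map_mul, c, map_mul, rep_mul_apply, n, map_neg, chi_one,
        neg_one_smul, neg_add], by
      rw [map_add, ← rep_mul_apply, ← map_mul, YY, map_one, map_one, chi_zero, one_smul, add_comm]
      rfl⟩)
    rw [chi_one, neg_one_smul, eq_neg_iff_add_eq_zero, add_comm, this]⟩)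
  rw [← hw] at k
  exact (sub_eq_zero.1 k).symm)

include hx

omit [FiniteDimensional ℂ W] in
theorem smul_diag {p m : Lab} {n : Gt} (e : τ * ρ (pauli p) = ρ n * τ) (hm : pauli m ∈ C0) :
    n • m = m ∨ n • m = Y0 * m := by
  have k := rl_mul (rl_mul e (h.c0 _ hm)) (rl_inv e)
  rw [conj_pauli', conj_pauli', pauli_smul'] at k
  rcases z2_cases (bf p m) with a | a
  · rw [a, xp_zero, one_mul, h.c0 _ hm, mul_left_inj, rho_pauli_inj hx] at k
    exact .inl k.symm
  · rw [a, xp_one, map_mul pauli, rl_mul h.tau_x (h.c0 _ hm), ← map_mul, mul_left_inj,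
      rho_pauli_inj hx] at k
    exact .inr k.symm

omit hx in
theorem mindeg (h1 : φ (ρ (pauli xc)) ≠ 1) : 196883 ≤ finrank ℂ W := by
  classical
  have hx : ρ (pauli xc) ≠ 1 := fun e => h1 (by rw [e, map_one])
  by_contra hn
  rw [not_le] at hn
  have tot := total_le h φ
  obtain ⟨t, t0, t1⟩ := exists_Wt (Ez_ne h φ h1)
  set R := φ.comp ρ with hR
  obtain ⟨γ, rfl⟩ := exists_smul_short short_tA (short_of_ne hn t0 t1)
  have k1 := fr_Wt (R := R) (s := γ • tA) (t := tA) γ⁻¹ (by rw [inv_smul_smul]; exact Eqv.refl _)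
  have k2 := mt Submodule.finrank_eq_zero.1 t0
  have hk : R kap = 1 := by rw [hR, MonoidHom.comp_apply, h.kap, map_one]
  obtain ⟨e, e1, e2⟩ := exists_e (R := R) hk (by omega)
  have ti : ∀ {a b : Gt}, τ * ρ a = ρ b * τ → ∀ w, R a (φ τ⁻¹ w) = φ τ⁻¹ (R b w) := fun {a b} k w =>
    rep_conj_apply φ (by rw [inv_inv, mul_assoc, ← k, inv_mul_cancel_left]) w
  let u : Pt → Pt → W := fun i j => φ τ⁻¹ (e (cls (m4 i j)) + e (Y0 * cls (m4 i j)))
  have sm : ∀ {i j}, i ≠ j → Short (cls (m4 i j)) := fun ij => short_cls (nm_m4 ij)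
  have hu : ∀ i j, i ≠ j → u i j ∈ Wt R 1 := fun i j ij =>
    mem_Wt_one (cls_e8 i ▸ big64 hn (nm_e8 i)) fun p hp => by
      obtain ⟨n, hn, k⟩ := h.theta_exists (pauli_mem_Np.2 hp)
      rw [ti k, map_add (R n), e2 _ _ (sm ij), e2 _ _ (short_Y ij), smul_mul', show n • Y0 = Y0 from hn]
      rcases smul_diag h hx k (m4_C0 i j) with a | a <;> rw [a]
      rw [← mul_assoc, YY, one_mul, add_comm]
  let RA := Representation.subrepresentation R (Wt R 1) fun γ v hv => by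
    simpa using Wt_map γ hv
  have RA1 : ∀ {a b}, gOf a = gOf b → RA a = RA b := fun {a b} k => by
    obtain ⟨q, hq⟩ := exists_pauli (γ := a * b⁻¹) (by simp [k])
    have : RA (pauli q) = 1 := LinearMap.ext fun v => Subtype.ext (by
      have := mem_Wt.1 v.2 q
      rwa [bf_one', chi_zero, one_smul] at this)
    rw [← one_mul (RA b), ← this, ← hq, ← map_mul, inv_mul_cancel_right]
  have sI := Function.surjInv_eq gOf_surjective
  let α : Co0 →* End ℂ (Wt R 1) :=
    { toFun := fun g => RA (Function.surjInv gOf_surjective g)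
      map_one' := (RA1 (by simp [sI])).trans RA.map_one
      map_mul' := fun a b => (RA1 (by simp [sI])).trans (RA.map_mul _ _) }
  have hα : ∀ γ (v : Wt R 1), (α (gOf γ) v : W) = R γ v := fun γ v =>
    congrArg (fun f : End ℂ (Wt R 1) => (f v : W)) (RA1 (sI _))
  let v : Pt → Pt → Wt R 1 := fun i j => if ij : i ≠ j then ⟨u i j, hu i j ij⟩ else 0
  have hv : ∀ {i j}, i ≠ j → (v i j : W) = u i j := fun ij => by simp only [v, dif_pos ij]
  have := co_deg α (LinearMap.ext fun v => Subtype.ext (by rw [← gOf_kap, hα, hk]; rfl)) v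
    (fun i j ij k => ?_) (fun i j => ?_) (fun o ho i j ij => Subtype.ext ?_)
    fun σ i j ij => Subtype.ext ?_
  · omega
  · have a := rep_injective φ _ (((hv ij).symm.trans (congrArg _ k)).trans (map_zero _).symm)
    have b := congrArg (R (pauli (X 11))) a
    rw [map_add, mem_Wt.1 (e1 _ (sm ij)).2, mem_Wt.1 (e1 _ (short_Y ij)).2, bf_mul', bf_11Y, bf_X,
      cls_b, b11_m4, add_zero, chi_zero, chi_one, one_smul, neg_one_smul, map_zero,
      eq_neg_of_add_eq_zero_right a, neg_neg, add_eq_zero_iff_eq_neg] at b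
    exact (e1 _ (sm ij)).1 (neg_self b)
  · by_cases ij : i = j
    · rw [ij]
    · exact Subtype.ext (by rw [hv ij, hv (Ne.symm ij)]; simp only [u, cls_m4_comm i])
  · obtain ⟨σ, rfl⟩ := exists_oct ho
    obtain ⟨p, n, a, b, c⟩ := h.theta_oct σ
    have d : X 11 * p * X 11 ≈ₗ cls (tw ho.1) := Eqv.trans
      ⟨by simp [ix_aba], by simp [ix_aba]⟩ a
    have f : bf (X 11 * p * X 11) (cls (m4 i j)) = ib (σ.1 • o1) i + ib (σ.1 • o1) j := by
      rw [d.bf (Eqv.refl _), bf_cls, d8_comm, d8_m4_tw]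
    have g : bf (X 11 * p * X 11) Y0 = 0 := by rw [bf_comm, bf_Y0, d.1, cls_a_tw]; rfl
    rw [show eps ho.1 = gOf (pauli (X 11) * n * pauli (X 11)) by simp [b], hα, Submodule.coe_smul,
      hv ij, ti (h.flip c), ← map_mul, ← map_mul, map_add (R _), mem_Wt.1 (e1 _ (sm ij)).2,
      mem_Wt.1 (e1 _ (short_Y ij)).2, bf_mul' Y0, f, g, zero_add, ← smul_add, map_smul]
  · obtain ⟨γ, a, b⟩ := exists_C0 σ
    have ne := σ.1.injective.ne ij
    rw [← b, hα, hv ij, hv ne, ti (h.c0 γ a), map_add (R γ), e2 _ _ (sm ij), e2 _ _ (short_Y ij),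
      smul_mul', show γ • Y0 = Y0 from C0_le_Np a, C0_smul_cls a (four_m4 _ _), b, perm_m4]

omit h hx in
theorem mindeg_GL (h : Out ρ τ) {n : ℕ} (f : Γ →* GL (Fin n) ℂ) (hf : Function.Injective f) :
    196883 ≤ n := by
  have := mindeg h.r0 ((Matrix.toLinAlgEquiv' : Matrix (Fin n) (Fin n) ℂ ≃ₐ[ℂ] _).toMulEquiv.toMonoidHom.comp
    ((Units.coeHom _).comp f)) fun e => h.x_ne (hf (Units.ext (by
      simpa using Matrix.toLinAlgEquiv'.injective (e.trans (map_one _).symm))))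
  simpa using this

end CF.Mon.Dg
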